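import Cfsg.Agent.H466.T3.Gelfand
import Cfsg.Agent.H139.HT.Const
import Cfsg.Agent.H722.DPol.Main

/-!
# The characters of a dual polar scheme are constituents of multiplicity one (helper195, for S4933, box C2)

* `mult_le_one'` : if all pairs of points of the transitive `G`-set `X` can be swapped then every irreducible character
  has multiplicity `≤ 1` in the permutation character;
* `mult_one` : hence `classInner π χ = 1` if `χ g = ∑ x, f x (g • x)`;
* `DP.chi` : the `j`-th character of a dual polar scheme: irreducible, degree, values, `χ + θ = π`, `classInner π χ = 1`.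
-/

set_option autoImplicit false
set_option linter.unusedSectionVars false

open scoped ComplexConjugate
open Cfsg

namespace Cfsg.Agent.H195.HT

open Cfsg.Agent.Characters.Core MulAction

universe u v

section Abs

variable {G : Type u} [Group G]

theorem sum_of_inv [Fintype G] (P : Subgroup G) [Fintype P] (h : ∀ g : G, ∃ a ∈ P, ∃ b ∈ P, g⁻¹ = a * g * b)
    {χ : G → ℂ} (hχ : IsIrrCharacter G χ) :
    ∑ g : P, χ g = 0 ∨ ∑ g : P, χ g = Nat.card P := by
  have h1 := H466.T3.Gelfand.mult_le_one P.subtype (1 : P →* ℂˣ) (fun g => g⁻¹) (Equiv.inv P)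
    (fun x y => mul_inv_rev x y) (fun a => rfl) (fun a => rfl) (fun g => by
      obtain ⟨a, ha, b, hb, e⟩ := h g
      exact Or.inl ⟨⟨a, ha⟩, ⟨b, hb⟩, e, by simp⟩) hχ
  have h2 : classInner (χ ∘ P.subtype) (fun a : P => (((1 : P →* ℂˣ) a : ℂˣ) : ℂ)) =
      (Nat.card P : ℂ)⁻¹ * ∑ g : P, χ g := by
    rw [classInner_def]
    congr 1
    refine Finset.sum_congr rfl fun g _ => ?_
    simp
  have h3 : (Nat.card P : ℂ) ≠ 0 := by exact_mod_cast Nat.card_pos.ne'
  rw [h2] at h1
  rcases h1 with h1 | h1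
  · left
    exact (mul_eq_zero.1 h1).resolve_left (inv_ne_zero h3)
  · right
    field_simp at h1
    exact h1

variable {X : Type v} [MulAction G X]

/-- **Multiplicity one.** `swap` : all pairs of points can be swapped. -/
theorem mult_one [Fintype G] [Finite X] [Nonempty X] (tr : ∀ x y : X, ∃ g : G, g • x = y)
    (swap : ∀ x y : X, ∃ g : G, g • x = y ∧ g • y = x) {χ θ : G → ℂ} (hχ : IsIrrCharacter G χ) (hθ : IsCharacter G θ)
    (h : ∀ g : G, χ g + θ g = (Nat.card {x : X // g • x = x} : ℂ)) :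
    classInner (fun g : G => (Nat.card {x : X // g • x = x} : ℂ)) χ = 1 := by
  classical
  let _ := Fintype.ofFinite X
  set π : G → ℂ := fun g => (Nat.card {x : X // g • x = x} : ℂ) with hπ
  have hπv : ∀ g, π g = ∑ x : X, if g • x = x then 1 else 0 := by
    intro g
    rw [hπ]
    simp only [Finset.sum_boole, Nat.card_eq_fintype_card, Fintype.card_subtype]
  have hG0 : (Nat.card G : ℂ) ≠ 0 := card_ne_zero_complex
  have hX0 : (Nat.card X : ℂ) ≠ 0 := by exact_mod_cast (Nat.card_pos (α := X)).ne'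
  -- the multiplicity is `1 + n`
  obtain ⟨n, hn⟩ := classInner_isNat hθ (isIrr_isCharacter hχ)
  have h1 : classInner π χ = 1 + n := by
    have e : π = χ + θ := funext fun g => (h g).symm
    rw [e, classInner_add_left, classInner_irr_self hχ, hn]
  -- the stabilizers
  have hst : ∀ x : X, ∃ ε : ℕ, ε ≤ 1 ∧ ∑ g : G, (if g • x = x then conj (χ g) else 0) =
      (ε : ℂ) * ((Nat.card G : ℂ) / (Nat.card X : ℂ)) := by
    intro x
    let _ := Fintype.ofFinite (stabilizer G x)
    have hc : (Nat.card (stabilizer G x) : ℂ) = (Nat.card G : ℂ) / (Nat.card X : ℂ) := by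
      have e1 := MulAction.card_orbit_mul_card_stabilizer_eq_card_group G x
      have e2 : orbit G x = Set.univ := by
        ext y
        simp only [Set.mem_univ, iff_true]
        exact tr x y
      have e3 : Fintype.card (orbit G x) = Nat.card X := by
        rw [← Nat.card_eq_fintype_card, e2]
        exact Nat.card_congr (Equiv.Set.univ X)
      rw [e3, ← Nat.card_eq_fintype_card, ← Nat.card_eq_fintype_card] at e1
      rw [eq_div_iff hX0, mul_comm, ← Nat.cast_mul, e1]
    have hs : ∑ g : G, (if g • x = x then conj (χ g) else 0) = conj (∑ g : stabilizer G x, χ g) := by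
      rw [OddOrderCharacters.Clifford.sum_eq_sum_subgroup (stabilizer G x)
        (fun g => if g • x = x then conj (χ g) else 0) (fun g hg => if_neg hg), map_sum]
      exact Finset.sum_congr rfl fun g _ => if_pos (show (g : G) • x = x from g.2)
    have hd : ∀ g : G, ∃ a ∈ stabilizer G x, ∃ b ∈ stabilizer G x, g⁻¹ = a * g * b := by
      intro g
      obtain ⟨k, hk1, hk2⟩ := swap x (g • x)
      refine ⟨g⁻¹ * k⁻¹, ?_, g⁻¹ * k, ?_, by group⟩
      · rw [mem_stabilizer_iff, mul_smul, inv_smul_eq_iff, inv_smul_eq_iff]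
        exact hk2.symm
      · rw [mem_stabilizer_iff, mul_smul, inv_smul_eq_iff]
        exact hk1
    rcases sum_of_inv (stabilizer G x) hd hχ with h2 | h2
    · exact ⟨0, by omega, by rw [hs, h2, map_zero, Nat.cast_zero, zero_mul]⟩
    · exact ⟨1, le_rfl, by rw [hs, h2, Complex.conj_natCast, hc, Nat.cast_one, one_mul]⟩
  choose ε hε1 hε2 using hst
  have h3 : classInner π χ = (Nat.card X : ℂ)⁻¹ * ∑ x : X, (ε x : ℂ) := by
    rw [classInner_def]
    have e : ∑ g : G, π g * conj (χ g) = ∑ x : X, ∑ g : G, (if g • x = x then conj (χ g) else 0) := by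
      rw [Finset.sum_comm]
      refine Finset.sum_congr rfl fun g _ => ?_
      rw [hπv, Finset.sum_mul]
      refine Finset.sum_congr rfl fun x _ => ?_
      rw [ite_mul, one_mul, zero_mul]
    rw [e, Finset.sum_congr rfl fun x _ => hε2 x, ← Finset.sum_mul]
    field_simp
  have h4 : (1 + n) * Nat.card X = ∑ x : X, ε x := by
    rw [h1] at h3
    have : (((1 + n) * Nat.card X : ℕ) : ℂ) = ((∑ x : X, ε x : ℕ) : ℂ) := by
      push_cast
      rw [h3]
      field_simp
    exact_mod_cast this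
  have h5 : ∑ x : X, ε x ≤ Nat.card X := by
    refine (Finset.sum_le_card_nsmul _ _ 1 fun x _ => hε1 x).trans ?_
    rw [Finset.card_univ, Nat.card_eq_fintype_card, smul_eq_mul, mul_one]
  have h6 : 0 < Nat.card X := Nat.card_pos
  have h7 : n = 0 := by
    by_contra hne
    have : 2 ≤ 1 + n := by omega
    nlinarith
  rw [h1, h7, Nat.cast_zero, add_zero]

end Abs

section DP

open Cfsg.Agent.H722.DPol Cfsg.Agent.H816.IMEig

variable {G : Type u} [Group G] {X : Type v} [MulAction G X] {d : X → X → ℕ} {m : ℕ}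

theorem DR_tr {up dn : ℕ → ℕ} (h : DR G X d m up dn) (x y : X) : ∃ g : G, g • x = y := by
  obtain ⟨g, hg, -⟩ := h.tr x x y y (by rw [(h.diag x x).2 rfl, (h.diag y y).2 rfl])
  exact ⟨g, hg⟩

theorem DR_swap {up dn : ℕ → ℕ} (h : DR G X d m up dn) (x y : X) : ∃ g : G, g • x = y ∧ g • y = x :=
  h.tr x y y x (h.symm x y)

/-- **Multiplicity one** for a distance transitive action. -/
theorem DR_mult_one {up dn : ℕ → ℕ} [Fintype G] [Fintype X] [Nonempty X] (h : DR G X d m up dn) {χ : G → ℂ}
    (hχ : IsIrrCharacter G χ) {f : X → X → ℂ} (hf : ∀ g : G, χ g = ∑ x : X, f x (g • x)) :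
    classInner (fun g : G => (Nat.card {x : X // g • x = x} : ℂ)) χ = 1 := by
  obtain ⟨θ, hθ, e⟩ := H139.HT.exists_theta hχ hf
  exact mult_one (DR_tr h) (DR_swap h) hχ hθ e

variable {Q s : ℕ}

/-- **The characters of a dual polar scheme**: values, degree, complement in the permutation character, multiplicity. -/
theorem DP_chi [Fintype G] [Fintype X] [Nonempty X] (hQ : 2 ≤ Q) (hs : 1 ≤ s) (hm : 1 ≤ m)
    (h : DP G X d m Q s) {j : ℕ} (hj : j ≤ m) :
    ∃ χ : G → ℂ, IsIrrCharacter G χ ∧ χ 1 = ((ff (Q : ℚ) (s : ℚ) m j : ℚ) : ℂ) ∧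
      (∀ g : G, χ g = ((ff (Q : ℚ) (s : ℚ) m j : ℚ) : ℂ) / (Nat.card X : ℂ) *
        ∑ x, ((om m Q s j (d x (g • x)) : ℚ) : ℂ)) ∧
      (∃ θ : G → ℂ, IsCharacter G θ ∧ ∀ g : G, χ g + θ g = (Nat.card {x : X // g • x = x} : ℂ)) ∧
      classInner (fun g : G => (Nat.card {x : X // g • x = x} : ℂ)) χ = 1 := by
  obtain ⟨χ, h1, h2, h3⟩ := DP.exists_char hQ hs hm h hj
  set F : X → X → ℂ := fun x y => ((ff (Q : ℚ) (s : ℚ) m j : ℚ) : ℂ) / (Nat.card X : ℂ) *
    ((om m Q s j (d x y) : ℚ) : ℂ) with hF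
  have h4 : ∀ g : G, χ g = ∑ x : X, F x (g • x) := by
    intro g
    rw [h3, Finset.mul_sum]
  exact ⟨χ, h1, h2, h3, H139.HT.exists_theta h1 (f := F) h4, DR_mult_one h h1 (f := F) h4⟩

end DP

end Cfsg.Agent.H195.HT
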