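import Cfsg.Agent.H195.HT.Const
import Cfsg.Agent.H697.HT.DPB0

/-!
# One character `χ_j` of a dual polar scheme with all its properties (helper195, for S4933, box C2)

`exists_chi` : an irreducible character `χ` with the degree, the values, the complement in the permutation character, the
multiplicity, the invariance, and the membership in the principal block for EVERY `M` (the same `χ`).
The membership is helper697's `exists_mem` (`H697/HT/DPB0.lean`) for a character given by its values.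
-/

set_option autoImplicit false
set_option linter.unusedSectionVars false

open scoped BigOperators
open Cfsg

namespace Cfsg.Agent.H195.HT

open Cfsg.Agent.H722.DPol Finset Cfsg.Agent.H582.Sph Cfsg.Agent.H816.IMEig Cfsg.Agent.Blocks.Fong
open Cfsg.Agent.H697.HT.DPB0

universe u v

variable {G : Type u} [Group G] {X : Type v} [MulAction G X] {d : X → X → ℕ} {m Q s j p : ℕ} {M : Ideal AlgInt}

/-- the value formula -/
def Vals [Fintype X] (d : X → X → ℕ) (m Q s j : ℕ) (χ : G → ℂ) : Prop :=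
  ∀ g : G, χ g = ((ff (Q : ℚ) (s : ℚ) m j : ℚ) : ℂ) / (Nat.card X : ℂ) * ∑ x : X, ((om m Q s j (d x (g • x)) : ℚ) : ℂ)

/-- the values give the invariance -/
theorem Vals.iso [Fintype X] {χ : G → ℂ} (h2 : Vals d m Q s j χ) (γ : G ≃* G) (h : Iso d γ) (g : G) :
    χ (γ g) = χ g := by
  obtain ⟨π, hπ1, hπ2⟩ := h
  rw [h2, h2]
  congr 1
  rw [← Equiv.sum_comp π]
  refine Finset.sum_congr rfl fun x _ => ?_
  rw [← hπ1, hπ2]

/-- the values give the membership in the principal block (helper697's proof) -/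
theorem Vals.mem [Finite G] [Fintype X] [Nonempty X] (hM : IsPModular p M) (hQ : 2 ≤ Q) (hs : 1 ≤ s)
    (h : DP G X d m Q s) (hj : j ≤ m) (χ : IrrCharacter G) (h2 : Vals d m Q s j (χ : G → ℂ)) (e : ℕ)
    (hc : ∀ i < e, (p : ℤ) ∣ PP (Q : ℤ) (s : ℤ) m j i - PP (Q : ℤ) (s : ℤ) m 0 i) (hI : Ines1 p e G d) :
    χ ∈ principalBlock M G := by
  classical
  have hp := hM.2.1.isPrime
  have hQ' : (1 : ℚ) < Q := by exact_mod_cast hQ
  have hs' : (0 : ℚ) < s := by exact_mod_cast hs
  have hff : ff (Q : ℚ) (s : ℚ) m j ≠ 0 := (ff_pos hQ' hs' hj).ne'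
  have hX0 : (Nat.card X : ℂ) ≠ 0 := by exact_mod_cast (Nat.card_pos (α := X)).ne'
  refine mem_principal_of_sph' (ω := fun u : Fin (m + 1) => ((om m Q s j u : ℚ) : ℂ)) hM h.toCol χ
    (a := ((ff (Q : ℚ) (s : ℚ) m j : ℚ) : ℂ) / (Nat.card X : ℂ)) ?_ ?_ ?_ ?_
  · exact div_ne_zero (by exact_mod_cast hff) hX0
  · show ((om m Q s j 0 : ℚ) : ℂ) = 1
    rw [om_zero]
    norm_num
  · exact h2
  · intro x u
    have hu : (u : ℕ) ≤ m := Nat.le_of_lt_succ u.2
    have e1 : ((Col.kk h.col x u : ℕ) : ℚ) = PP (Q : ℚ) (s : ℚ) m 0 u := DP.kk_eq hQ hs h x u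
    have e2 : (Col.kk h.col x u : ℂ) * ((om m Q s j u : ℚ) : ℂ) - (Col.kk h.col x u : ℂ) =
        (((PP (Q : ℤ) (s : ℤ) m j u - PP (Q : ℤ) (s : ℤ) m 0 u : ℤ) : AlgInt) : ℂ) := by
      have e3 : ((Col.kk h.col x u : ℕ) : ℚ) * om m Q s j u - ((Col.kk h.col x u : ℕ) : ℚ) =
          ((PP (Q : ℤ) (s : ℤ) m j u - PP (Q : ℤ) (s : ℤ) m 0 u : ℤ) : ℚ) := by
        rw [Int.cast_sub, PP_castQ, PP_castQ, e1]
        unfold om
        have := (val_pos hQ' hs' hu).ne'
        field_simp
      have e4 := congrArg (fun r : ℚ => (r : ℂ)) e3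
      push_cast at e4 ⊢
      exact e4
    rw [e2]
    rcases Nat.lt_or_ge (u : ℕ) e with hlt | hge
    · left
      obtain ⟨k, hk⟩ := hc u hlt
      rw [lideal_coe_iff hp, hk]
      push_cast
      exact M.mul_mem_right _ hM.2.2
    · right
      refine ⟨lring_coe hp _, ?_⟩
      intro x' y' hxy
      refine hI x' y' ?_
      have := congrArg Fin.val hxy
      change d x' y' = (u : ℕ) at this
      omega

/-- **All properties of the `j`-th character** of a dual polar scheme. -/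
structure Chi (G : Type u) [Group G] [Fintype G] (X : Type v) [MulAction G X] [Fintype X] (d : X → X → ℕ)
    (m Q s j : ℕ) (χ : IrrCharacter G) : Prop where
  /-- the degree, and the invariance under the isometries -/
  isChi : IsChi d m Q s j (χ : G → ℂ)
  /-- the values -/
  vals : Vals (X := X) d m Q s j (χ : G → ℂ)
  /-- the complement in the permutation character -/
  theta : ∃ θ : G → ℂ, IsCharacter G θ ∧ ∀ g : G, (χ : G → ℂ) g + θ g = (Nat.card {x : X // g • x = x} : ℂ)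
  /-- the multiplicity in the permutation character -/
  mult : classInner (fun g : G => (Nat.card {x : X // g • x = x} : ℂ)) (χ : G → ℂ) = 1
  /-- the principal block -/
  mem : ∀ (p : ℕ) (M : Ideal AlgInt) (e : ℕ), IsPModular p M →
    (∀ i < e, (p : ℤ) ∣ PP (Q : ℤ) (s : ℤ) m j i - PP (Q : ℤ) (s : ℤ) m 0 i) → Ines1 p e G d →
    χ ∈ principalBlock M G

/-- **The `j`-th character.** -/
theorem exists_chi [Fintype G] [Fintype X] [Nonempty X] (hQ : 2 ≤ Q) (hs : 1 ≤ s) (hm : 1 ≤ m)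
    (h : DP G X d m Q s) (hj : j ≤ m) : ∃ χ : IrrCharacter G, Chi G X d m Q s j χ := by
  obtain ⟨χ, h1, h2, h3, h4, h5⟩ := DP_chi hQ hs hm h hj
  have hv : Vals d m Q s j χ := h3
  exact ⟨⟨χ, h1⟩, ⟨h2, hv.iso⟩, hv, h4, h5, fun p M e hM hc hI => Vals.mem hM hQ hs h hj ⟨χ, h1⟩ hv e hc hI⟩

section mem

variable [Fintype G] [Fintype X] [Nonempty X] {χ : IrrCharacter G}

/-- the character is unique -/
theorem Chi.unique {χ' : IrrCharacter G} (h : Chi G X d m Q s j χ) (h' : Chi G X d m Q s j χ') : χ = χ' := by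
  refine Subtype.ext (funext fun g => ?_)
  rw [h.vals g, h'.vals g]

/-- **Unitary primes**: `Q ^ c = -1`, `Q ^ j = 1` modulo `p`. -/
theorem Chi.mem_unitary (hχ : Chi G X d m Q s j χ) (h : DP G X d m Q s) (hM : IsPModular p M) {t : ℕ}
    (hs : s = Q ^ t) (hj : j ≤ m) {c : ℕ} (hc : (Q : ZMod p) ^ c = -1) (hQj : (Q : ZMod p) ^ j = 1) :
    χ ∈ principalBlock M G := by
  have : Fact p.Prime := ⟨hM.1⟩
  refine hχ.mem p M (m + 1) hM (fun i _ => dvd_unitary hs hc hj hQj i) fun x y hxy => ?_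
  have := h.le x y
  omega

/-- **Unitary primes**, the characters `j` with `s Q^(m-j) = -1` modulo `p`. -/
theorem Chi.mem_unitary' (hχ : Chi G X d m Q s j χ) (h : DP G X d m Q s) (hM : IsPModular p M)
    (hj : j ≤ m) (hc : (s : ZMod p) * (Q : ZMod p) ^ (m - j) = -1) : χ ∈ principalBlock M G := by
  have : Fact p.Prime := ⟨hM.1⟩
  refine hχ.mem p M (m + 1) hM (fun i _ => dvd_unitary' hj hc i) fun x y hxy => ?_
  have := h.le x y
  omega

/-- **Linear primes**: `e` is the order of `Q` modulo `p` (odd in the applications), `Q ^ j = 1`. -/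
theorem Chi.mem_linear (hχ : Chi G X d m Q s j χ) (hM : IsPModular p M) (hj : j ≤ m) {e : ℕ}
    (he : ∀ k, 0 < k → k < e → (Q : ZMod p) ^ k ≠ 1) (hQj : (Q : ZMod p) ^ j = 1) (hI : Ines1 p e G d) :
    χ ∈ principalBlock M G := by
  have : Fact p.Prime := ⟨hM.1⟩
  exact hχ.mem p M e hM (fun i hi => dvd_linear he hj hQj hi) hI

end mem

end Cfsg.Agent.H195.HT
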