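import Cfsg.Agent.H35.HT.Idx

/-!
# The `p`-part of the order of the isometry groups of rank `2c` (helper195, for S4933, box H2 (C))

`orderOf q = 2c` in `ZMod p`, `v_p(q^c + 1) = a`: the exponent of `p` in `|F.iso|` is `2 a` for the four models of Witt index `2c`
(`minusF` only for `c ≥ 2`).
-/

set_option autoImplicit false
set_option linter.unusedSectionVars false

namespace Cfsg.Agent.H195.HT

open Module Cfsg.Agent.H477.HC Cfsg Cfsg.Agent.H35.HT.Val Cfsg.Agent.H35.HT.Idx CForm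

universe u

variable (K : Type u) [Field K] [Finite K] {p a c : ℕ} [hp : Fact p.Prime]

theorem fac_aux (hp2 : p ≠ 2) {N w : ℕ} (hw : w = 2) (ha : padicValNat p (Nat.card K ^ c + 1) = a)
    (h : (padicValNat p N : ℤ) = (w : ℤ) * B p (Nat.card K) c + (padicValNat p w.factorial : ℤ)) :
    N.factorization p = 2 * a := by
  have h2 : padicValNat p (Nat.factorial 2) = 0 := by
    rw [Nat.factorial_two]
    exact v_two (hp.out.odd_of_ne_two hp2)
  rw [hw, B_nat, ha, h2] at h
  rw [Nat.factorization_def _ hp.out]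
  have h3 : (padicValNat p N : ℤ) = ((2 * a : ℕ) : ℤ) := by
    rw [h]
    push_cast
    ring
  exact_mod_cast h3

theorem fac_sp (hp2 : p ≠ 2) (hc0 : 0 < c)
    (ho : orderOf ((Nat.card K : ℕ) : ZMod p) = 2 * c) (ha : padicValNat p (Nat.card K ^ c + 1) = a) :
    (Nat.card (spF K (2 * c)).iso).factorization p = 2 * a :=
  fac_aux K hp2 (by unfold wSp; exact Nat.mul_div_cancel _ hc0) ha (v_iso_sp K ho hc0 (2 * c))

theorem fac_plus (hp2 : p ≠ 2) (hc0 : 0 < c)
    (ho : orderOf ((Nat.card K : ℕ) : ZMod p) = 2 * c) (ha : padicValNat p (Nat.card K ^ c + 1) = a) :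
    (Nat.card (plusF K (2 * c)).iso).factorization p = 2 * a :=
  fac_aux K hp2 (by
    unfold wPlus
    rw [Nat.mul_div_cancel _ hc0, if_neg]
    rintro ⟨-, h⟩
    exact absurd h (by decide)) ha (v_iso_plus K ho hc0 (2 * c))

theorem odd_card (h2 : (2 : K) ≠ 0) : Odd (Nat.card K) := by
  have := Fintype.ofFinite K
  rw [Nat.card_eq_fintype_card, Nat.odd_iff]
  refine FiniteField.odd_card_of_char_ne_two fun h => h2 ?_
  have : CharP K 2 := ringChar.of_eq h
  exact CharTwo.two_eq_zero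

theorem fac_odd (h2 : (2 : K) ≠ 0) (hp2 : p ≠ 2) (hc0 : 0 < c)
    (ho : orderOf ((Nat.card K : ℕ) : ZMod p) = 2 * c) (ha : padicValNat p (Nat.card K ^ c + 1) = a) :
    (Nat.card (oddF K (2 * c) h2).iso).factorization p = 2 * a :=
  fac_aux K hp2 (by unfold wSp; exact Nat.mul_div_cancel _ hc0) ha (v_iso_odd K h2 (odd_card K h2) ho hc0 (2 * c))

theorem fac_minus {α β : K} (hab : ∀ z₁ z₂ : K, z₁ ^ 2 + α * z₁ * z₂ + β * z₂ ^ 2 = 0 → z₁ = 0 ∧ z₂ = 0)
    (hp2 : p ≠ 2) (hc1 : 1 < c)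
    (ho : orderOf ((Nat.card K : ℕ) : ZMod p) = 2 * c) (ha : padicValNat p (Nat.card K ^ c + 1) = a) :
    (Nat.card (minusF K (2 * c) α β hab).iso).factorization p = 2 * a :=
  fac_aux K hp2 (by
    unfold wMinus
    have h1 : (2 * c + 1) / c = 2 := by
      rw [Nat.div_eq_iff (by omega)]
      constructor <;> omega
    rw [h1, if_neg]
    rintro ⟨h, -⟩
    have h3 : c ∣ 1 := (Nat.dvd_add_right (Dvd.intro_left 2 rfl)).1 h
    exact absurd (Nat.le_of_dvd one_pos h3) (by omega)) ha (v_iso_minus K ho (by omega) (2 * c) α β hab)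

end Cfsg.Agent.H195.HT
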