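import Cfsg.Agent.H195.HT.Const

/-!
# Frobenius reciprocity for a permutation character (helper195, for S4933)

`inner_stab` : `X` transitive, `H` the stabiliser of `x`: `[χ|H, 1] = conj [π, χ]`; `inner_stab_one` : if `[π, χ] = 1` then
`[χ|H, 1] = 1`.
-/

set_option autoImplicit false
set_option linter.unusedSectionVars false

open scoped ComplexConjugate
open Cfsg

namespace Cfsg.Agent.H195.HT

open Cfsg.Agent.Characters.Core MulAction

universe u v

variable {G : Type u} [Group G] {X : Type v} [MulAction G X]

theorem inner_stab [Fintype G] [Finite X] (tr : ∀ x y : X, ∃ g : G, g • x = y) {χ : G → ℂ}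
    (hχ : ∀ g k : G, χ (k * g * k⁻¹) = χ g) (x : X) (H : Subgroup G) [Fintype H] (hH : ∀ g, g ∈ H ↔ g • x = x) :
    classInner (fun h : H => χ h) (fun _ => (1 : ℂ)) =
      conj (classInner (fun g : G => (Nat.card {x : X // g • x = x} : ℂ)) χ) := by
  classical
  let _ := Fintype.ofFinite X
  have hne : Nonempty X := ⟨x⟩
  have hG0 : (Nat.card G : ℂ) ≠ 0 := card_ne_zero_complex
  have hX0 : (Nat.card X : ℂ) ≠ 0 := by exact_mod_cast (Nat.card_pos (α := X)).ne'
  have hH0 : (Nat.card H : ℂ) ≠ 0 := card_ne_zero_complex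
  have hHs : H = stabilizer G x := by
    ext g
    rw [hH, mem_stabilizer_iff]
  have hc : (Nat.card G : ℂ) = Nat.card X * Nat.card H := by
    have e1 := MulAction.card_orbit_mul_card_stabilizer_eq_card_group G x
    have e2 : orbit G x = Set.univ := by
      ext y
      simp only [Set.mem_univ, iff_true]
      exact tr x y
    have e3 : Fintype.card (orbit G x) = Nat.card X := by
      rw [← Nat.card_eq_fintype_card, e2]
      exact Nat.card_congr (Equiv.Set.univ X)
    rw [e3, ← Nat.card_eq_fintype_card, ← Nat.card_eq_fintype_card, ← hHs] at e1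
    rw [← Nat.cast_mul, e1]
  have hπv : ∀ g : G, (Nat.card {x : X // g • x = x} : ℂ) = ∑ x : X, if g • x = x then 1 else 0 := by
    intro g
    simp only [Finset.sum_boole, Nat.card_eq_fintype_card, Fintype.card_subtype]
  have hS : ∀ y : X, ∑ g : G, (if g • y = y then conj (χ g) else 0) = conj (∑ h : H, χ h) := by
    intro y
    obtain ⟨k, rfl⟩ := tr x y
    rw [← Equiv.sum_comp (MulAut.conj k).toEquiv]
    have e1 : ∀ g : G, (if (MulAut.conj k).toEquiv g • k • x = k • x then conj (χ ((MulAut.conj k).toEquiv g)) else 0) =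
        if g • x = x then conj (χ g) else 0 := by
      intro g
      have e2 : (MulAut.conj k).toEquiv g = k * g * k⁻¹ := rfl
      rw [e2, hχ, mul_smul, inv_smul_smul, mul_smul]
      simp only [smul_left_cancel_iff]
    rw [Finset.sum_congr rfl fun g _ => e1 g, OddOrderCharacters.Clifford.sum_eq_sum_subgroup H
      (fun g => if g • x = x then conj (χ g) else 0) (fun g hg => if_neg fun h => hg ((hH g).2 h)), map_sum]
    exact Finset.sum_congr rfl fun g _ => if_pos ((hH g).1 g.2)
  have h3 : classInner (fun g : G => (Nat.card {x : X // g • x = x} : ℂ)) χ =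
      (Nat.card H : ℂ)⁻¹ * conj (∑ h : H, χ h) := by
    rw [classInner_def]
    have e : ∑ g : G, (Nat.card {x : X // g • x = x} : ℂ) * conj (χ g) =
        ∑ y : X, ∑ g : G, (if g • y = y then conj (χ g) else 0) := by
      rw [Finset.sum_comm]
      refine Finset.sum_congr rfl fun g _ => ?_
      rw [hπv, Finset.sum_mul]
      refine Finset.sum_congr rfl fun x _ => ?_
      rw [ite_mul, one_mul, zero_mul]
    rw [e, Finset.sum_congr rfl fun y _ => hS y, Finset.sum_const, Finset.card_univ, ← Nat.card_eq_fintype_card,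
      nsmul_eq_mul, hc]
    field_simp
  rw [h3, map_mul, map_inv₀, Complex.conj_natCast, Complex.conj_conj, classInner_def]
  congr 1
  exact Finset.sum_congr rfl fun h _ => by rw [map_one, mul_one]

/-- **the restriction to the stabiliser contains the trivial character once** -/
theorem inner_stab_one [Fintype G] [Finite X] (tr : ∀ x y : X, ∃ g : G, g • x = y) {χ : G → ℂ}
    (hχ : IsCharacter G χ) (h1 : classInner (fun g : G => (Nat.card {x : X // g • x = x} : ℂ)) χ = 1)
    (x : X) (H : Subgroup G) [Fintype H] (hH : ∀ g, g ∈ H ↔ g • x = x) :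
    classInner (fun h : H => χ h) (fun _ => (1 : ℂ)) = 1 := by
  rw [inner_stab tr (fun g k => by
    obtain ⟨n, ρ, rfl⟩ := hχ
    exact Representation.char_conj ρ g k) x H hH, h1, map_one]

end Cfsg.Agent.H195.HT
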